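import Cfsg.Agent.Lib.SpecRee.Z
import Cfsg.Prelude.Def_LieTwisted

/-!
# `R × R × Z` and `R × R × R` have the same element orders
-/

set_option autoImplicit false
set_option linter.unusedSectionVars false
set_option linter.style.haveILetI false
set_option linter.unusedVariables false

namespace Cfsg.Agent.Lib.SpecRee.Final

open Cfsg.Agent.Lib.SpecRee.Z

/-- Rearranging three orders. -/
theorem rearr {A B C D a b c : ℕ}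
    (ha : a ∣ 6 ∨ a ∣ 9 ∨ a ∣ A ∨ a ∣ B ∨ a ∣ C ∨ a ∣ D)
    (hb : b ∣ 6 ∨ b ∣ 9 ∨ b ∣ A ∨ b ∣ B ∨ b ∣ C ∨ b ∣ D)
    (hc : c ∣ 6 ∨ c ∣ 9 ∨ c ∣ A ∨ c ∣ B ∨ c ∣ C ∨ c ∣ D) :
    ∃ x y t : ℕ, (x ∣ 6 ∨ x ∣ 9 ∨ x ∣ A ∨ x ∣ B ∨ x ∣ C ∨ x ∣ D) ∧
      (y ∣ 6 ∨ y ∣ 9 ∨ y ∣ A ∨ y ∣ B ∨ y ∣ C ∨ y ∣ D) ∧
      (t ∣ 6 ∨ t ∣ 9 ∨ t ∣ A ∨ t ∣ B) ∧ Nat.lcm x (Nat.lcm y t) = Nat.lcm a (Nat.lcm b c) := by
  have hT : ∀ {e : ℕ}, (e ∣ 6 ∨ e ∣ 9 ∨ e ∣ A ∨ e ∣ B) →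
      (e ∣ 6 ∨ e ∣ 9 ∨ e ∣ A ∨ e ∣ B ∨ e ∣ C ∨ e ∣ D) := by
    intro e h
    rcases h with h | h | h | h
    · exact Or.inl h
    · exact Or.inr (Or.inl h)
    · exact Or.inr (Or.inr (Or.inl h))
    · exact Or.inr (Or.inr (Or.inr (Or.inl h)))
  by_cases hc' : c ∣ 6 ∨ c ∣ 9 ∨ c ∣ A ∨ c ∣ B
  · exact ⟨a, b, c, ha, hb, hc', rfl⟩
  by_cases hb' : b ∣ 6 ∨ b ∣ 9 ∨ b ∣ A ∨ b ∣ B
  · exact ⟨a, c, b, ha, hc, hb', by rw [Nat.lcm_comm c b]⟩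
  by_cases ha' : a ∣ 6 ∨ a ∣ 9 ∨ a ∣ A ∨ a ∣ B
  · refine ⟨b, c, a, hb, hc, ha', ?_⟩
    rw [Nat.lcm_comm c a, ← Nat.lcm_assoc, Nat.lcm_comm b a, Nat.lcm_assoc]
  have hU : ∀ {e : ℕ}, (e ∣ 6 ∨ e ∣ 9 ∨ e ∣ A ∨ e ∣ B ∨ e ∣ C ∨ e ∣ D) →
      ¬ (e ∣ 6 ∨ e ∣ 9 ∨ e ∣ A ∨ e ∣ B) → e ∣ C ∨ e ∣ D := by
    intro e h h'
    rcases h with h | h | h | h | h | h
    · exact absurd (Or.inl h) h'
    · exact absurd (Or.inr (Or.inl h)) h'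
    · exact absurd (Or.inr (Or.inr (Or.inl h))) h'
    · exact absurd (Or.inr (Or.inr (Or.inr h))) h'
    · exact Or.inl h
    · exact Or.inr h
  have hone : (1 : ℕ) ∣ 6 ∨ (1 : ℕ) ∣ 9 ∨ (1 : ℕ) ∣ A ∨ (1 : ℕ) ∣ B := Or.inl (one_dvd _)
  have mergeC : ∀ {u v : ℕ}, u ∣ C → v ∣ C →
      (Nat.lcm u v ∣ 6 ∨ Nat.lcm u v ∣ 9 ∨ Nat.lcm u v ∣ A ∨ Nat.lcm u v ∣ B ∨ Nat.lcm u v ∣ C ∨
        Nat.lcm u v ∣ D) := fun hu hv =>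
    Or.inr (Or.inr (Or.inr (Or.inr (Or.inl (Nat.lcm_dvd hu hv)))))
  have mergeD : ∀ {u v : ℕ}, u ∣ D → v ∣ D →
      (Nat.lcm u v ∣ 6 ∨ Nat.lcm u v ∣ 9 ∨ Nat.lcm u v ∣ A ∨ Nat.lcm u v ∣ B ∨ Nat.lcm u v ∣ C ∨
        Nat.lcm u v ∣ D) := fun hu hv =>
    Or.inr (Or.inr (Or.inr (Or.inr (Or.inr (Nat.lcm_dvd hu hv)))))
  have eqab : Nat.lcm (Nat.lcm a b) (Nat.lcm c 1) = Nat.lcm a (Nat.lcm b c) := by
    rw [Nat.lcm_one_right, Nat.lcm_assoc]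
  have eqac : Nat.lcm (Nat.lcm a c) (Nat.lcm b 1) = Nat.lcm a (Nat.lcm b c) := by
    rw [Nat.lcm_one_right, Nat.lcm_assoc, Nat.lcm_comm c b]
  have eqbc : Nat.lcm (Nat.lcm b c) (Nat.lcm a 1) = Nat.lcm a (Nat.lcm b c) := by
    rw [Nat.lcm_one_right, Nat.lcm_comm]
  rcases hU ha ha' with ua | ua <;> rcases hU hb hb' with ub | ub <;>
    rcases hU hc hc' with uc | uc
  · exact ⟨_, _, 1, mergeC ua ub, hc, hone, eqab⟩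
  · exact ⟨_, _, 1, mergeC ua ub, hc, hone, eqab⟩
  · exact ⟨_, _, 1, mergeC ua uc, hb, hone, eqac⟩
  · exact ⟨_, _, 1, mergeD ub uc, ha, hone, eqbc⟩
  · exact ⟨_, _, 1, mergeC ub uc, ha, hone, eqbc⟩
  · exact ⟨_, _, 1, mergeD ua uc, hb, hone, eqac⟩
  · exact ⟨_, _, 1, mergeD ua ub, hc, hone, eqab⟩
  · exact ⟨_, _, 1, mergeD ua ub, hc, hone, eqab⟩

theorem pow_mod_four (m : ℕ) : 3 ^ (2 * m + 1) % 4 = 3 := by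
  have h : 3 ^ (2 * m + 1) = 3 * 9 ^ m := by
    rw [pow_succ, pow_mul]
    norm_num
    ring
  rw [h, Nat.mul_mod, Nat.pow_mod]
  norm_num

/-- The conditional main theorem: the only input is the spectrum of the Ree group. -/
theorem main {K : Type*} [Field K] [Fintype K] {m : ℕ} (N : ℕ)
    (hR : ∀ d : ℕ, (∃ g : ↥(Cfsg.Lie.twistedG2 K (3 ^ m)), orderOf g = d) ↔
      (d ∣ 6 ∨ d ∣ 9 ∨ d ∣ 3 ^ (2 * m + 1) - 1 ∨ d ∣ (3 ^ (2 * m + 1) + 1) / 2 ∨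
        d ∣ 3 ^ (2 * m + 1) - 3 ^ (m + 1) + 1 ∨ d ∣ 3 ^ (2 * m + 1) + 3 ^ (m + 1) + 1))
    (hR₀ : ∀ d : ℕ, (∃ g : ↥(Cfsg.Lie.twistedG2 (GaloisField 3 (2 * m + 1)) (3 ^ m)), orderOf g = d) ↔
      (d ∣ 6 ∨ d ∣ 9 ∨ d ∣ 3 ^ (2 * m + 1) - 1 ∨ d ∣ (3 ^ (2 * m + 1) + 1) / 2 ∨
        d ∣ 3 ^ (2 * m + 1) - 3 ^ (m + 1) + 1 ∨ d ∣ 3 ^ (2 * m + 1) + 3 ^ (m + 1) + 1)) :
    ∃ (H : Type) (_ : Group H) (_ : Fintype H), N < Fintype.card H ∧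
      Set.range (orderOf : H → ℕ) = Set.range (orderOf : ↥(Cfsg.Lie.twistedG2 K (3 ^ m)) ×
        ↥(Cfsg.Lie.twistedG2 K (3 ^ m)) × ↥(Cfsg.Lie.twistedG2 K (3 ^ m)) → ℕ) := by
  classical
  haveI : Fact (Nat.Prime 3) := ⟨Nat.prime_three⟩
  let F := GaloisField 3 (2 * m + 1)
  haveI : Fintype F := Fintype.ofFinite F
  haveI : CharP F 3 := inferInstance
  have hcard : Fintype.card F = 3 ^ (2 * m + 1) := by
    rw [← Nat.card_eq_fintype_card]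
    exact GaloisField.card 3 (2 * m + 1) (by omega)
  have hq : Fintype.card F % 4 = 3 := by
    rw [hcard]
    exact pow_mod_four m
  let R₀ := ↥(Cfsg.Lie.twistedG2 F (3 ^ m))
  let k := N + 1
  haveI hZfin : Finite (ZZ F k) := finite_ZZ k
  haveI hR₀fin : Finite R₀ := inferInstance
  let H := R₀ × R₀ × ZZ F k
  haveI hHfin : Finite H := inferInstance
  letI hHf : Fintype H := Fintype.ofFinite H
  letI hHg : Group H := inferInstance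
  have e : ∀ (x y : R₀) (w : ZZ F k), orderOf ((x, y, w) : R₀ × R₀ × ZZ F k) =
      Nat.lcm (orderOf x) (Nat.lcm (orderOf y) (orderOf w)) := fun x y w => by
    rw [Prod.orderOf, Prod.orderOf]
  have e' : ∀ (x y w : ↥(Cfsg.Lie.twistedG2 K (3 ^ m))), orderOf ((x, y, w) :
      ↥(Cfsg.Lie.twistedG2 K (3 ^ m)) × ↥(Cfsg.Lie.twistedG2 K (3 ^ m)) ×
        ↥(Cfsg.Lie.twistedG2 K (3 ^ m))) =
      Nat.lcm (orderOf x) (Nat.lcm (orderOf y) (orderOf w)) := fun x y w => by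
    rw [Prod.orderOf, Prod.orderOf]
  refine ⟨H, hHg, hHf, ?_, ?_⟩
  · rw [← Nat.card_eq_fintype_card]
    have h1 : Nat.card (ZZ F k) ≤ Nat.card H := by
      apply Nat.card_le_card_of_injective (fun z : ZZ F k => ((1 : R₀), (1 : R₀), z))
      intro z z' h
      exact congrArg (fun p : H => p.2.2) h
    have h2 := card_ZZ_ge (F := F) k
    have h3 : k < 2 ^ k := Nat.lt_two_pow_self
    omega
  · ext d
    constructor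
    · rintro ⟨⟨a, b, z⟩, rfl⟩
      have ha := (hR₀ _).mp ⟨a, rfl⟩
      have hb := (hR₀ _).mp ⟨b, rfl⟩
      have hz := order_cases (F := F) hq k z
      rw [hcard] at hz
      obtain ⟨a', ha'⟩ := (hR _).mpr ha
      obtain ⟨b', hb'⟩ := (hR _).mpr hb
      have hz' : orderOf z ∣ 6 ∨ orderOf z ∣ 9 ∨ orderOf z ∣ 3 ^ (2 * m + 1) - 1 ∨
          orderOf z ∣ (3 ^ (2 * m + 1) + 1) / 2 ∨ orderOf z ∣ 3 ^ (2 * m + 1) - 3 ^ (m + 1) + 1 ∨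
          orderOf z ∣ 3 ^ (2 * m + 1) + 3 ^ (m + 1) + 1 := by
        rcases hz with h | h | h | h
        · exact Or.inl h
        · exact Or.inr (Or.inl h)
        · exact Or.inr (Or.inr (Or.inl h))
        · exact Or.inr (Or.inr (Or.inr (Or.inl h)))
      obtain ⟨c', hc'⟩ := (hR _).mpr hz'
      refine ⟨(a', b', c'), ?_⟩
      rw [e', ha', hb', hc']
      exact (e a b z).symm
    · rintro ⟨⟨a, b, c⟩, rfl⟩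
      obtain ⟨x, y, t, hx, hy, ht, hxyt⟩ := rearr ((hR _).mp ⟨a, rfl⟩) ((hR _).mp ⟨b, rfl⟩)
        ((hR _).mp ⟨c, rfl⟩)
      obtain ⟨a', ha'⟩ := (hR₀ _).mpr hx
      obtain ⟨b', hb'⟩ := (hR₀ _).mpr hy
      have ht' : t ∣ 6 ∨ t ∣ 9 ∨ t ∣ Fintype.card F - 1 ∨ t ∣ (Fintype.card F + 1) / 2 := by
        rw [hcard]
        exact ht
      obtain ⟨z, hz⟩ := exists_of_dvd (F := F) hq (k := k) (by omega) ht'
      refine ⟨(a', b', z), ?_⟩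
      have := e a' b' z
      rw [ha', hb', hz, hxyt, ← e'] at this
      exact this

end Cfsg.Agent.Lib.SpecRee.Final
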