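import Cfsg.Agent.Lib.SpecRee.Semi
import Cfsg.Agent.Lib.PrimeGraph.PSL2Spec

/-!
# The group `Mat₂(F)^k : (2 × PSL₂(F))` in characteristic `3`
-/

set_option autoImplicit false
set_option linter.unusedSectionVars false
set_option linter.style.haveILetI false
set_option linter.unusedVariables false

namespace Cfsg.Agent.Lib.SpecRee.Z

open Matrix
open scoped MatrixGroups
open Cfsg.Agent.Lib.SpecRee.Semi
open Cfsg.Agent.Lib.PrimeGraph.SL2 Cfsg.Agent.Lib.PrimeGraph.PSL2Spec

variable {F : Type*} [Field F] [Fintype F] [CharP F 3]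

/-- `2 × 2` matrices. -/
abbrev MM (F : Type*) [Field F] : Type _ := Matrix (Fin 2) (Fin 2) F

/-- The module. -/
abbrev VV (F : Type*) [Field F] (k : ℕ) : Type _ := Fin k → MM F

/-- Frobenius. -/
noncomputable def sig (F : Type*) [Field F] [CharP F 3] : F →+* F := frobenius F 3

theorem sig_apply (x : F) : sig F x = x ^ 3 := rfl

/-- The twist of `g`. -/
noncomputable def tw (g : SL(2, F)) : SL(2, F) := Matrix.SpecialLinearGroup.map (sig F) g

theorem tw_mul (g h : SL(2, F)) : tw (g * h) = tw g * tw h := map_mul _ g h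

theorem tw_one : tw (1 : SL(2, F)) = 1 := map_one _

theorem tw_apply (g : SL(2, F)) (i j : Fin 2) : (tw g).1 i j = (g.1 i j) ^ 3 := rfl

theorem inv_tw (g : SL(2, F)) : (tw g⁻¹).1 * (tw g).1 = 1 := by
  rw [← Matrix.SpecialLinearGroup.coe_mul, ← tw_mul, inv_mul_cancel, tw_one]
  rfl

theorem tw_inv (g : SL(2, F)) : (tw g).1 * (tw g⁻¹).1 = 1 := by
  rw [← Matrix.SpecialLinearGroup.coe_mul, ← tw_mul, mul_inv_cancel, tw_one]
  rfl

theorem inv_g (g : SL(2, F)) : (g⁻¹).1 * g.1 = 1 := by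
  rw [← Matrix.SpecialLinearGroup.coe_mul, inv_mul_cancel]
  rfl

theorem g_inv (g : SL(2, F)) : g.1 * (g⁻¹).1 = 1 := by
  rw [← Matrix.SpecialLinearGroup.coe_mul, mul_inv_cancel]
  rfl

/-- The action on matrices. -/
noncomputable def actM (g : SL(2, F)) : MM F ≃ₗ[F] MM F where
  toFun X := g.1 * X * (tw g).1ᵀ
  map_add' X Y := by
    simp only [Matrix.mul_add, Matrix.add_mul]
  map_smul' c X := by
    simp only [Matrix.mul_smul, Matrix.smul_mul, RingHom.id_apply]
  invFun X := (g⁻¹).1 * X * (tw g⁻¹).1ᵀ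
  left_inv X := by
    calc (g⁻¹).1 * (g.1 * X * (tw g).1ᵀ) * (tw g⁻¹).1ᵀ
        = ((g⁻¹).1 * g.1) * X * ((tw g⁻¹).1 * (tw g).1)ᵀ := by
          rw [Matrix.transpose_mul]
          simp only [Matrix.mul_assoc]
      _ = X := by rw [inv_g, inv_tw, Matrix.transpose_one, Matrix.one_mul, Matrix.mul_one]
  right_inv X := by
    calc g.1 * ((g⁻¹).1 * X * (tw g⁻¹).1ᵀ) * (tw g).1ᵀ
        = (g.1 * (g⁻¹).1) * X * ((tw g).1 * (tw g⁻¹).1)ᵀ := by
          rw [Matrix.transpose_mul]
          simp only [Matrix.mul_assoc]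
      _ = X := by rw [g_inv, tw_inv, Matrix.transpose_one, Matrix.one_mul, Matrix.mul_one]

theorem actM_apply (g : SL(2, F)) (X : MM F) : actM g X = g.1 * X * (tw g).1ᵀ := rfl

theorem actM_mul (g h : SL(2, F)) (X : MM F) : actM (g * h) X = actM g (actM h X) := by
  simp only [actM_apply, tw_mul, Matrix.SpecialLinearGroup.coe_mul, Matrix.transpose_mul,
    Matrix.mul_assoc]

theorem actM_one (X : MM F) : actM (1 : SL(2, F)) X = X := by
  simp only [actM_apply, tw_one, Matrix.SpecialLinearGroup.coe_one, Matrix.transpose_one,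
    Matrix.mul_one, Matrix.one_mul]

/-- The action of `SL₂` on the module. -/
noncomputable def psi0 (F : Type*) [Field F] [Fintype F] [CharP F 3] (k : ℕ) :
    SL(2, F) →* (VV F k ≃ₗ[F] VV F k) where
  toFun g := LinearEquiv.piCongrRight (fun _ => actM g)
  map_one' := by
    ext x i
    have : actM (1 : SL(2, F)) (x i) = x i := actM_one _
    exact congrFun (congrFun this _) _
  map_mul' g h := by
    ext x i
    have : actM (g * h) (x i) = actM g (actM h (x i)) := actM_mul _ _ _
    exact congrFun (congrFun this _) _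

theorem psi0_apply (k : ℕ) (g : SL(2, F)) (x : VV F k) (i : Fin k) :
    psi0 F k g x i = g.1 * x i * (tw g).1ᵀ := rfl

theorem psi0_center (k : ℕ) : ∀ g ∈ Subgroup.center (SL(2, F)), psi0 F k g = 1 := by
  intro g hg
  rw [Matrix.SpecialLinearGroup.mem_center_iff] at hg
  obtain ⟨r, hr, hg⟩ := hg
  have hr2 : r ^ 2 = 1 := by simpa using hr
  have h1 : g.1 = r • (1 : MM F) := by
    rw [← hg]
    ext i j
    by_cases hij : i = j
    · subst hij
      simp
    · simp [hij]
  have h2 : (tw g).1 = r ^ 3 • (1 : MM F) := by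
    ext i j
    rw [tw_apply, h1]
    by_cases hij : i = j
    · subst hij
      simp
    · simp [hij]
  ext x i a b
  have h3 : psi0 F k g x i = x i := by
    rw [psi0_apply, h1, h2]
    simp only [Matrix.transpose_smul, Matrix.transpose_one, Matrix.smul_mul, Matrix.mul_smul,
      Matrix.one_mul, Matrix.mul_one, smul_smul]
    have : r ^ 3 * r = 1 := by
      calc r ^ 3 * r = (r ^ 2) ^ 2 := by ring
        _ = 1 := by rw [hr2]; ring
    rw [this, one_smul]
  exact congrFun (congrFun h3 a) b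

/-- The action of `PSL₂`. -/
noncomputable def psi1 (F : Type*) [Field F] [Fintype F] [CharP F 3] (k : ℕ) :
    L F →* (VV F k ≃ₗ[F] VV F k) :=
  QuotientGroup.lift _ (psi0 F k) (psi0_center k)

theorem psi1_mk (k : ℕ) (g : SL(2, F)) : psi1 F k (mkL g) = psi0 F k g := rfl

/-- The action of the central factor. -/
noncomputable def psiE (F : Type*) [Field F] (k : ℕ) : ℤˣ →* (VV F k ≃ₗ[F] VV F k) :=
  DistribMulAction.toModuleAut F (VV F k)

theorem psiE_apply (k : ℕ) (ε : ℤˣ) (x : VV F k) : psiE F k ε x = ε • x := rfl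

/-- The acting group. -/
abbrev LL (F : Type*) [Field F] [Fintype F] : Type _ := ℤˣ × L F

/-- The action of `ℤˣ × PSL₂(F)`. -/
noncomputable def psi (F : Type*) [Field F] [Fintype F] [CharP F 3] (k : ℕ) :
    LL F →* (VV F k ≃ₗ[F] VV F k) :=
  MonoidHom.noncommCoprod (psiE F k) (psi1 F k) (by
    intro ε p
    ext1 x
    change ε • (psi1 F k p x) = psi1 F k p (ε • x)
    rw [map_zsmul_unit]) 

theorem psi_mk (k : ℕ) (ε : ℤˣ) (g : SL(2, F)) (x : VV F k) (i : Fin k) :
    psi F k (ε, mkL g) x i = ε • (g.1 * x i * (tw g).1ᵀ) := rfl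

/-- The group `Z`. -/
abbrev ZZ (F : Type*) [Field F] [Fintype F] [CharP F 3] (k : ℕ) : Type _ := SD (psi F k)

/-- The key trace identity. -/
theorem tr_eq {G H X : MM F} (hG : G.det = 1) (hH : H.det = 1) {c : F} (hc : c ^ 2 = 1)
    (h : G * X * Hᵀ = c • X) (hX : X ≠ 0) : tr2 G = c * tr2 H := by
  set K := Hᵀ with hK
  have hKdet : K.det = 1 := by rw [hK, Matrix.det_transpose, hH]
  set G' := Matrix.adjugate G with hG'
  set K' := Matrix.adjugate K with hK'
  have h1 : G' * G = 1 := by rw [hG', Matrix.adjugate_mul, hG, one_smul]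
  have h2 : K * K' = 1 := by rw [hK', Matrix.mul_adjugate, hKdet, one_smul]
  have hsumG : G + G' = tr2 G • (1 : MM F) := by
    rw [hG', Matrix.adjugate_fin_two]
    ext i j
    fin_cases i <;> fin_cases j <;> simp [tr2] <;> ring
  have hsumK : K' + K = tr2 H • (1 : MM F) := by
    have htr : tr2 K = tr2 H := by
      simp [hK, tr2]
    rw [hK', Matrix.adjugate_fin_two, ← htr]
    ext i j
    fin_cases i <;> fin_cases j <;> simp [tr2] <;> ring
  have e1 : X * K = c • (G' * X) := by
    calc X * K = (G' * G) * X * K := by rw [h1, Matrix.one_mul]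
      _ = G' * (G * X * K) := by simp only [Matrix.mul_assoc]
      _ = c • (G' * X) := by rw [h, Matrix.mul_smul]
  have e2 : G * X = c • (X * K') := by
    calc G * X = G * X * (K * K') := by rw [h2, Matrix.mul_one]
      _ = (G * X * K) * K' := by simp only [Matrix.mul_assoc]
      _ = c • (X * K') := by rw [h, Matrix.smul_mul]
  have e3 : G' * X = c • (X * K) := by
    rw [e1, smul_smul, ← sq, hc, one_smul]
  have e4 : tr2 G • X = (c * tr2 H) • X := by
    calc tr2 G • X = (tr2 G • (1 : MM F)) * X := by rw [Matrix.smul_mul, Matrix.one_mul]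
      _ = G * X + G' * X := by rw [← hsumG, Matrix.add_mul]
      _ = c • (X * (K' + K)) := by rw [e2, e3, Matrix.mul_add, smul_add]
      _ = (c * tr2 H) • X := by
        rw [hsumK, Matrix.mul_smul, Matrix.mul_one, smul_smul]
  have e5 : (tr2 G - c * tr2 H) • X = 0 := by rw [sub_smul, e4, sub_self]
  rcases smul_eq_zero.mp e5 with h5 | h5
  · exact sub_eq_zero.mp h5
  · exact absurd h5 hX

theorem tr_tw (g : SL(2, F)) : tr2 (tw g).1 = (tr2 g.1) ^ 3 := by
  have h := (sig F).map_add (g.1 0 0) (g.1 1 1)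
  simp only [sig_apply] at h
  simp only [tr2, tw_apply]
  exact h.symm

theorem three_eq_zero : (3 : F) = 0 := by
  have := CharP.cast_eq_zero F 3
  exact_mod_cast this

theorem two_ne_zero' : (2 : F) ≠ 0 := by
  intro h
  have h1 : (1 : F) = 0 := by
    have h3 := three_eq_zero (F := F)
    linear_combination h3 - h
  exact one_ne_zero h1

theorem neg_one_ne : (-1 : F) ≠ 1 := by
  intro h
  apply two_ne_zero' (F := F)
  linear_combination -h

theorem mkL_sq_of_trace_zero (g : SL(2, F)) (h : tr2 g.1 = 0) : (mkL g) ^ 2 = 1 := by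
  rw [mkL_pow_eq_one_iff]
  refine ⟨-1, by ring, ?_⟩
  rw [pow_two, sq_eq, h, zero_smul]
  simp

theorem mkL_cube_of_trace_sq (g : SL(2, F)) (h : (tr2 g.1) ^ 2 = 1) : (mkL g) ^ 3 = 1 := by
  rw [mkL_pow_eq_one_iff]
  refine ⟨-tr2 g.1, by rw [neg_sq, h], ?_⟩
  have hs := sq_eq g
  set τ := tr2 g.1 with hτ
  calc g.1 ^ 3 = g.1 * g.1 * g.1 := by rw [pow_succ, pow_two]
    _ = (τ • g.1 - 1) * g.1 := by rw [hs]
    _ = τ • (g.1 * g.1) - g.1 := by
      rw [Matrix.sub_mul, Matrix.smul_mul, Matrix.one_mul]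
    _ = τ • (τ • g.1 - 1) - g.1 := by rw [hs]
    _ = (τ ^ 2 - 1) • g.1 - τ • (1 : MM F) := by
      rw [smul_sub, smul_smul, sub_smul, ← pow_two, one_smul]
      abel
    _ = (-τ) • (1 : MM F) := by
      rw [h, sub_self, zero_smul, zero_sub, neg_smul]

/-- An element with a nonzero fixed vector has order at most `3`. -/
theorem fix_cases (hq : Fintype.card F % 4 = 3) (k : ℕ) (ε : ℤˣ) (g : SL(2, F)) (x : VV F k)
    (hx : x ≠ 0) (hfix : psi F k (ε, mkL g) x = x) :
    ((ε, mkL g) : LL F) ^ 2 = 1 ∨ ((ε, mkL g) : LL F) ^ 3 = 1 := by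
  obtain ⟨i, hi⟩ := Function.ne_iff.mp hx
  have hXne : x i ≠ 0 := hi
  have hfi : ε • (g.1 * x i * (tw g).1ᵀ) = x i := by
    have := congrFun hfix i
    rwa [psi_mk] at this
  have hε2 : ε ^ 2 = 1 := Int.units_sq ε
  have htr : ∀ c : F, c ^ 2 = 1 → g.1 * x i * (tw g).1ᵀ = c • x i →
      tr2 g.1 = c * (tr2 g.1) ^ 3 := by
    intro c hc h
    have := tr_eq g.2 (tw g).2 hc h hXne
    rwa [tr_tw] at this
  by_cases hτ : tr2 g.1 = 0
  · left
    apply Prod.ext
    · exact hε2
    · exact mkL_sq_of_trace_zero g hτ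
  · rcases Int.units_eq_one_or ε with rfl | rfl
    · right
      have h1 : g.1 * x i * (tw g).1ᵀ = (1 : F) • x i := by
        rw [one_smul]
        simpa using hfi
      have h2 := htr 1 (by ring) h1
      have h3 : (tr2 g.1) ^ 2 = 1 := by
        have : tr2 g.1 * ((tr2 g.1) ^ 2 - 1) = 0 := by linear_combination -h2
        rcases mul_eq_zero.mp this with h4 | h4
        · exact absurd h4 hτ
        · exact sub_eq_zero.mp h4
      apply Prod.ext
      · simp
      · exact mkL_cube_of_trace_sq g h3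
    · exfalso
      have h1 : g.1 * x i * (tw g).1ᵀ = (-1 : F) • x i := by
        have : -(g.1 * x i * (tw g).1ᵀ) = x i := by simpa using hfi
        calc g.1 * x i * (tw g).1ᵀ = -(-(g.1 * x i * (tw g).1ᵀ)) := (neg_neg _).symm
          _ = -x i := by rw [this]
          _ = (-1 : F) • x i := (neg_one_smul _ _).symm
      have h2 := htr (-1) (by ring) h1
      have h3 : (tr2 g.1) ^ 2 = -1 := by
        have : tr2 g.1 * ((tr2 g.1) ^ 2 + 1) = 0 := by linear_combination h2
        rcases mul_eq_zero.mp this with h4 | h4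
        · exact absurd h4 hτ
        · linear_combination h4
      have hsq : IsSquare (-1 : F) := ⟨tr2 g.1, by rw [← h3, pow_two]⟩
      exact (FiniteField.isSquare_neg_one_iff.mp hsq) hq

theorem gcd_eq (hq : Fintype.card F % 4 = 3) : Nat.gcd 2 (Fintype.card F - 1) = 2 := by
  apply Nat.gcd_eq_left
  omega

theorem aN_eq (hq : Fintype.card F % 4 = 3) : 2 * aN F = Fintype.card F - 1 := by
  have := aN_mul F
  rw [gcd_eq hq] at this
  omega

theorem bN_eq (hq : Fintype.card F % 4 = 3) : bN F = (Fintype.card F + 1) / 2 := by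
  have := bN_mul F
  rw [gcd_eq hq] at this
  omega

theorem aN_odd (hq : Fintype.card F % 4 = 3) : ¬ 2 ∣ aN F := by
  have := aN_eq hq
  omega

theorem bN_even (hq : Fintype.card F % 4 = 3) : 2 ∣ bN F := by
  have := bN_mul F
  rw [gcd_eq hq] at this
  omega

theorem pow_cases' (hq : Fintype.card F % 4 = 3) (l : LL F) :
    l ^ (Fintype.card F - 1) = 1 ∨ l ^ ((Fintype.card F + 1) / 2) = 1 ∨ l ^ 6 = 1 := by
  obtain ⟨ε, p⟩ := l
  have hε2 : ε ^ 2 = 1 := Int.units_sq ε
  rcases pow_cases (F := F) 3 p with h | h | h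
  · left
    rw [← aN_eq hq]
    apply Prod.ext
    · change ε ^ (2 * aN F) = 1
      rw [pow_mul, hε2, one_pow]
    · change p ^ (2 * aN F) = 1
      rw [mul_comm, pow_mul, h, one_pow]
  · right; left
    rw [← bN_eq hq]
    apply Prod.ext
    · change ε ^ bN F = 1
      obtain ⟨c, hc⟩ := bN_even (F := F) hq
      rw [hc, pow_mul, hε2, one_pow]
    · exact h
  · right; right
    apply Prod.ext
    · change ε ^ 6 = 1
      have : ε ^ 6 = (ε ^ 2) ^ 3 := by rw [← pow_mul]
      rw [this, hε2, one_pow]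
    · change p ^ 6 = 1
      have : p ^ 6 = (p ^ 3) ^ 2 := by rw [← pow_mul]
      rw [this, h, one_pow]

theorem three_smul_eq (k : ℕ) (x : VV F k) : 3 • x = 0 := by
  have h3 := three_eq_zero (F := F)
  have : (3 : ℕ) • x = ((3 : ℕ) : F) • x := by
    rw [Nat.cast_smul_eq_nsmul]
  rw [this]
  have h4 : ((3 : ℕ) : F) = 0 := by exact_mod_cast h3
  rw [h4, zero_smul]

/-- Element orders of `Z`: upper bound. -/
theorem order_cases (hq : Fintype.card F % 4 = 3) (k : ℕ) (z : ZZ F k) :
    orderOf z ∣ 6 ∨ orderOf z ∣ 9 ∨ orderOf z ∣ Fintype.card F - 1 ∨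
      orderOf z ∣ (Fintype.card F + 1) / 2 := by
  obtain ⟨v, l, rfl⟩ := mk'_surj (psi F k) z
  by_cases hfree : ∀ x : VV F k, psi F k l x = x → x = 0
  · rcases pow_cases' hq l with h | h | h
    · right; right; left
      exact orderOf_dvd_of_pow_eq_one (pow_of_free _ v l h hfree)
    · right; right; right
      exact orderOf_dvd_of_pow_eq_one (pow_of_free _ v l h hfree)
    · left
      exact orderOf_dvd_of_pow_eq_one (pow_of_free _ v l h hfree)
  · push Not at hfree
    obtain ⟨x, hfx, hx⟩ := hfree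
    obtain ⟨ε, p⟩ := l
    obtain ⟨g, rfl⟩ := QuotientGroup.mk_surjective p
    rcases fix_cases hq k ε g x hx hfx with h | h
    · left
      exact orderOf_dvd_of_pow_eq_one (pow_three_mul _ (three_smul_eq k) v _ h)
    · right; left
      exact orderOf_dvd_of_pow_eq_one (pow_three_mul _ (three_smul_eq k) v _ h)

theorem orderOf_neg_one_int : orderOf (-1 : ℤˣ) = 2 := by
  haveI : Fact (Nat.Prime 2) := ⟨Nat.prime_two⟩
  apply orderOf_eq_prime
  · rfl
  · decide

theorem orderOf_inr' (k : ℕ) (l : LL F) : orderOf (mk' (psi F k) 0 l) = orderOf l :=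
  orderOf_inr _ l

theorem exists_order_qm (hq : Fintype.card F % 4 = 3) (k : ℕ) :
    ∃ z : ZZ F k, orderOf z = Fintype.card F - 1 := by
  obtain ⟨g, hg⟩ := exists_order_a (F := F)
  refine ⟨mk' (psi F k) 0 (-1, g), ?_⟩
  rw [orderOf_inr', Prod.orderOf, orderOf_neg_one_int, hg, ← aN_eq hq]
  have h := aN_odd (F := F) hq
  exact Nat.Coprime.lcm_eq_mul ((Nat.Prime.coprime_iff_not_dvd Nat.prime_two).mpr h)

theorem exists_order_qp (hq : Fintype.card F % 4 = 3) (k : ℕ) :
    ∃ z : ZZ F k, orderOf z = (Fintype.card F + 1) / 2 := by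
  obtain ⟨g, hg⟩ := exists_order_b (F := F) 3
  refine ⟨mk' (psi F k) 0 (1, g), ?_⟩
  rw [orderOf_inr', Prod.orderOf, orderOf_one, hg, ← bN_eq hq, Nat.lcm_one_left]

theorem exists_order_six (k : ℕ) : ∃ z : ZZ F k, orderOf z = 6 := by
  obtain ⟨g, hg⟩ := exists_order_p (F := F) 3
  refine ⟨mk' (psi F k) 0 (-1, g), ?_⟩
  rw [orderOf_inr', Prod.orderOf, orderOf_neg_one_int, hg]
  rfl

/-- The unipotent element. -/
def uu (F : Type*) [Field F] : SL(2, F) := ⟨!![1, 1; 0, 1], by simp [Matrix.det_fin_two]⟩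

theorem tw_uu : (tw (uu F)).1 = (uu F).1 := by
  ext i j
  rw [tw_apply]
  fin_cases i <;> fin_cases j <;> simp [uu]

theorem mkL_uu_cube : (mkL (uu F)) ^ 3 = 1 := by
  rw [mkL_pow_eq_one_iff]
  refine ⟨1, by ring, ?_⟩
  have h3 := three_eq_zero (F := F)
  have h : (uu F).1 ^ 3 = !![1, 3; 0, 1] := by
    rw [pow_succ, pow_two]
    ext i j
    fin_cases i <;> fin_cases j <;> simp [uu, Matrix.mul_apply, Fin.sum_univ_two] <;> norm_num
  rw [h, h3, one_smul]
  ext i j
  fin_cases i <;> fin_cases j <;> simp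

theorem exists_order_nine {k : ℕ} (hk : 1 ≤ k) : ∃ z : ZZ F k, orderOf z = 9 := by
  haveI : Fact (Nat.Prime 3) := ⟨Nat.prime_three⟩
  let l : LL F := (1, mkL (uu F))
  have hl3 : l ^ 3 = 1 := by
    apply Prod.ext
    · simp [l]
    · exact mkL_uu_cube
  let E : MM F := !![0, 0; 0, 1]
  let v : VV F k := fun _ => E
  refine ⟨mk' (psi F k) v l, ?_⟩
  have h3 : ∀ x : VV F k, ∀ i, psi F k l x i = (uu F).1 * x i * (uu F).1ᵀ := by
    intro x i
    have := psi_mk k (1 : ℤˣ) (uu F) x i
    rw [one_smul, tw_uu] at this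
    exact this
  have h := orderOf_eq_prime_pow (p := 3) (n := 1) (x := mk' (psi F k) v l) ?_ ?_
  · rw [h]; norm_num
  · intro hz
    rw [pow_one, mk'_pow] at hz
    have hzl : (Multiplicative.ofAdd (nrm (psi F k) l v 3)) = 1 := congrArg SemidirectProduct.left hz
    have hzl' : nrm (psi F k) l v 3 = 0 := hzl
    have hn : nrm (psi F k) l v 3 = v + psi F k l v + psi F k l (psi F k l v) := by
      simp only [nrm, Finset.sum_range_succ, Finset.sum_range_zero, zero_add, pow_zero, pow_one,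
        pow_two]
      rfl
    rw [hn] at hzl'
    have e1 : (uu F).1 * E * (uu F).1ᵀ = !![1, 1; 1, 1] := by
      ext i j
      fin_cases i <;> fin_cases j <;>
        simp [uu, E, Matrix.mul_apply, Fin.sum_univ_two, Matrix.transpose_apply]
    have e2 : (uu F).1 * (!![1, 1; 1, 1] : MM F) * (uu F).1ᵀ = !![4, 2; 2, 1] := by
      ext i j
      fin_cases i <;> fin_cases j <;>
        simp [uu, Matrix.mul_apply, Fin.sum_univ_two, Matrix.transpose_apply] <;> norm_num
    have hv1 : ∀ i, psi F k l v i = !![1, 1; 1, 1] := fun i => by rw [h3]; exact e1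
    have hv2 : ∀ i, psi F k l (psi F k l v) i = !![4, 2; 2, 1] := fun i => by
      rw [h3, hv1]; exact e2
    have h0 := congrFun hzl' ⟨0, hk⟩
    have h1 := congrFun (congrFun h0 0) 0
    simp only [Pi.add_apply, Matrix.add_apply, hv1, hv2] at h1
    have h6 : (0 : F) + 1 + 4 = 0 := by
      have h7 : (v ⟨0, hk⟩) 0 0 = 0 := rfl
      simpa [h7] using h1
    have h5 : (2 : F) = 0 := by
      have h33 := three_eq_zero (F := F)
      linear_combination h6 - h33
    exact two_ne_zero' h5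
  · have h9 : (3 : ℕ) ^ (1 + 1) = 3 * 3 := by norm_num
    rw [h9]
    exact pow_three_mul _ (three_smul_eq k) v l hl3

/-- Realising the small orders. -/
theorem exists_of_dvd (hq : Fintype.card F % 4 = 3) {k : ℕ} (hk : 1 ≤ k) {d : ℕ}
    (h : d ∣ 6 ∨ d ∣ 9 ∨ d ∣ Fintype.card F - 1 ∨ d ∣ (Fintype.card F + 1) / 2) :
    ∃ z : ZZ F k, orderOf z = d := by
  have key : ∀ D : ℕ, D ≠ 0 → d ∣ D → (∃ z : ZZ F k, orderOf z = D) → ∃ z : ZZ F k, orderOf z = d := by
    intro D hD hd ⟨z, hz⟩
    refine ⟨z ^ (orderOf z / d), ?_⟩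
    apply orderOf_pow_orderOf_div
    · rw [hz]; exact hD
    · rw [hz]; exact hd
  have hq3 : 3 ≤ Fintype.card F := by omega
  rcases h with h | h | h | h
  · exact key 6 (by norm_num) h (exists_order_six k)
  · exact key 9 (by norm_num) h (exists_order_nine hk)
  · exact key _ (by omega) h (exists_order_qm hq k)
  · exact key _ (by omega) h (exists_order_qp hq k)

theorem finite_ZZ (k : ℕ) : Finite (ZZ F k) :=
  Finite.of_equiv _ SemidirectProduct.equivProd.symm

theorem card_ZZ_ge (k : ℕ) : 2 ^ k ≤ Nat.card (ZZ F k) := by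
  classical
  haveI := finite_ZZ (F := F) k
  have hinj : Function.Injective (fun x : VV F k => mk' (psi F k) x 1) := by
    intro x y h
    exact congrArg SemidirectProduct.left h
  have h1 := Nat.card_le_card_of_injective _ hinj
  refine le_trans ?_ h1
  rw [Nat.card_fun, Nat.card_fin]
  apply Nat.pow_le_pow_left
  have h2 : 1 < Nat.card (MM F) := by
    rw [Finite.one_lt_card_iff_nontrivial]
    infer_instance
  omega

end Cfsg.Agent.Lib.SpecRee.Z
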